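import Mathlib

/-!
# An element of a `p`-group whose centraliser has a small centre (helper555)

* `center_facts` : `T` a `p`-group, `w ∈ T` of order `p`, not central, the centre `Z` of `C(w)` of order at most `p²`: the centre of
  `T` has order `p`, `|Z| = p²` and each element of `Z` is central in `T` or conjugate to a power of `w`.
-/

set_option autoImplicit false

namespace Cfsg.Agent.H555.MG

open Subgroup

variable {T : Type*} [Group T]

/-- the centre of the centraliser of `w` -/
def ZC (w : T) : Subgroup T where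
  carrier := {g | ∀ s, s * w = w * s → g * s = s * g}
  one_mem' := fun s _ => by rw [one_mul, mul_one]
  mul_mem' := by
    intro a b ha hb s hs
    rw [mul_assoc, hb s hs, ← mul_assoc, ha s hs, mul_assoc]
  inv_mem' := by
    intro a ha s hs
    exact ((show Commute a s from ha s hs).inv_left).eq

theorem mem_ZC {w g : T} : g ∈ ZC w ↔ ∀ s, s * w = w * s → g * s = s * g := Iff.rfl

theorem center_le_ZC (w : T) : center T ≤ ZC w := fun _ hg s _ => (mem_center_iff.1 hg s).symm

theorem self_mem_ZC (w : T) : w ∈ ZC w := fun _ hs => hs.symm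

theorem center_facts [Finite T] {p : ℕ} [hp : Fact p.Prime] (hT : IsPGroup p T) {w : T} (hw : w ^ p = 1)
    (hwc : w ∉ center T) (hZ : Nat.card (ZC w) ≤ p ^ 2) :
    Nat.card (center T) = p ∧ Nat.card (ZC w) = p ^ 2 ∧
      ∀ x ∈ ZC w, x ∈ center T ∨ ∃ (g : T) (i : ℕ), g * x * g⁻¹ = w ^ i := by
  classical
  have hw1 : w ≠ 1 := by
    rintro rfl
    exact hwc (one_mem _)
  have hwo : orderOf w = p := orderOf_eq_prime hw hw1
  have hnt : Nontrivial T := ⟨⟨w, 1, hw1⟩⟩
  have hcn : Nontrivial (center T) := hT.center_nontrivial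
  -- the orders
  obtain ⟨a, ha⟩ := IsPGroup.iff_card.1 (hT.to_subgroup (center T))
  obtain ⟨b, hb⟩ := IsPGroup.iff_card.1 (hT.to_subgroup (ZC w))
  have ha1 : 1 ≤ a := by
    rcases Nat.eq_zero_or_pos a with rfl | h
    · rw [pow_zero] at ha
      exact absurd ha (Finite.one_lt_card_iff_nontrivial.2 hcn).ne'
    · exact h
  have hlt : a < b := by
    have h1 : Nat.card (center T) < Nat.card (ZC w) := by
      refine lt_of_le_of_ne (Nat.card_le_card_of_injective _ (inclusion_injective (center_le_ZC w))) fun h => ?_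
      exact hwc (eq_of_le_of_card_ge (center_le_ZC w) h.ge ▸ self_mem_ZC w)
    rw [ha, hb] at h1
    exact (Nat.pow_lt_pow_iff_right hp.out.one_lt).1 h1
  have hb2 : b ≤ 2 := by
    rw [hb] at hZ
    exact (Nat.pow_le_pow_iff_right hp.out.one_lt).1 hZ
  obtain rfl : a = 1 := by omega
  obtain rfl : b = 2 := by omega
  rw [pow_one] at ha
  refine ⟨ha, hb, ?_⟩
  -- `⟨w⟩ ∩ Z(T) = 1`
  have hinf : ∀ i : ℕ, w ^ i ∈ center T → w ^ i = 1 := by
    intro i hi
    by_contra h
    apply hwc
    have h1 : ¬ p ∣ i := fun hd => h (by rw [← orderOf_dvd_iff_pow_eq_one, hwo]; exact hd)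
    obtain ⟨m, hm⟩ := Nat.exists_mul_mod_eq_one_of_coprime (((Nat.Prime.coprime_iff_not_dvd hp.out).2 h1).symm)
      hp.out.one_lt
    have h2 : w ^ (i * m) = w := by
      rw [← Nat.mod_add_div (i * m) p, hm.2, pow_add, pow_mul, hw, one_pow, pow_one, mul_one]
    rw [← h2, pow_mul]
    exact pow_mem hi m
  -- all elements of `ZC w`
  have hform : ∀ x ∈ ZC w, ∃ i : ℕ, ∃ c ∈ center T, x = w ^ i * c := by
    let f : Fin p × center T → ZC w := fun q => ⟨w ^ (q.1 : ℕ) * q.2, mul_mem (pow_mem (self_mem_ZC w) _)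
      (center_le_ZC w q.2.2)⟩
    have hf : Function.Injective f := by
      rintro ⟨i, c⟩ ⟨j, d⟩ h
      have h1 : w ^ (i : ℕ) * (c : T) = w ^ (j : ℕ) * d := congrArg Subtype.val h
      have key : ∀ i j : ℕ, i < p → j < p → i ≤ j → ∀ c d : center T, w ^ i * (c : T) = w ^ j * d → i = j := by
        intro i j hi hj hij c d h1
        have h2 : w ^ (j - i) = (c : T) * (d : T)⁻¹ := by
          have h3 : w ^ j = w ^ i * w ^ (j - i) := by rw [← pow_add]; congr 1; omega
          rw [h3, mul_assoc] at h1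
          rw [mul_left_cancel h1, mul_inv_cancel_right]
        have h3 := hinf (j - i) (by rw [h2]; exact mul_mem c.2 (inv_mem d.2))
        have h4 := orderOf_dvd_of_pow_eq_one h3
        rw [hwo] at h4
        rcases Nat.eq_zero_or_pos (j - i) with h5 | h5
        · omega
        · have := Nat.le_of_dvd h5 h4
          omega
      have hij : (i : ℕ) = j := by
        rcases le_total (i : ℕ) j with h2 | h2
        · exact key _ _ i.2 j.2 h2 c d h1
        · exact (key _ _ j.2 i.2 h2 d c h1.symm).symm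
      have hij' : i = j := Fin.ext hij
      subst hij'
      exact Prod.ext rfl (Subtype.ext (mul_left_cancel h1))
    have hs : Function.Surjective f := by
      have : Fintype (center T) := Fintype.ofFinite _
      have : Fintype (ZC w) := Fintype.ofFinite _
      refine ((Fintype.bijective_iff_injective_and_card f).2 ⟨hf, ?_⟩).2
      rw [← Nat.card_eq_fintype_card, ← Nat.card_eq_fintype_card, Nat.card_prod, ha, hb, Nat.card_eq_fintype_card,
        Fintype.card_fin, pow_two]
    intro x hx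
    obtain ⟨⟨i, c⟩, h⟩ := hs ⟨x, hx⟩
    exact ⟨i, c, c.2, (congrArg Subtype.val h).symm⟩
  -- an element normalising `C(w)`
  obtain ⟨g, hgN, hgS⟩ : ∃ g : T, g ∈ normalizer (centralizer ({w} : Set T) : Set T) ∧ g ∉ centralizer ({w} : Set T) := by
    have hnil : Group.IsNilpotent T := hT.isNilpotent
    have h1 : centralizer ({w} : Set T) < ⊤ := by
      rw [lt_top_iff_ne_top]
      intro h
      apply hwc
      rw [mem_center_iff]
      intro g
      exact mem_centralizer_singleton_iff.1 (h ▸ mem_top g)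
    have h2 := Group.normalizerCondition_of_isNilpotent (G := T) _ h1
    obtain ⟨g, hg1, hg2⟩ := SetLike.exists_of_lt h2
    exact ⟨g, hg1, hg2⟩
  have hgc : g * w ≠ w * g := fun h => hgS (mem_centralizer_singleton_iff.2 h)
  have hgZ : g * w * g⁻¹ ∈ ZC w := by
    intro s hs
    have h1 : g⁻¹ * s * g ∈ centralizer ({w} : Set T) := by
      have h2 := (mem_normalizer_iff.1 (inv_mem hgN) s).1 (mem_centralizer_singleton_iff.2 hs)
      rwa [inv_inv] at h2
    have h2 := mem_centralizer_singleton_iff.1 h1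
    calc g * w * g⁻¹ * s = g * (w * (g⁻¹ * s * g)) * g⁻¹ := by group
      _ = g * ((g⁻¹ * s * g) * w) * g⁻¹ := by rw [h2]
      _ = s * (g * w * g⁻¹) := by group
  obtain ⟨e, c, hc, hgw⟩ := hform _ hgZ
  -- the powers
  have hpow : ∀ n : ℕ, ∃ d ∈ center T, g ^ n * w * (g ^ n)⁻¹ = w ^ (e ^ n) * d := by
    intro n
    induction n with
    | zero => exact ⟨1, one_mem _, by simp⟩
    | succ n ih =>
      obtain ⟨d, hd, h⟩ := ih
      refine ⟨c ^ (e ^ n) * d, mul_mem (pow_mem hc _) hd, ?_⟩
      have hdc := mem_center_iff.1 hd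
      have hcc := mem_center_iff.1 hc
      have h1 : g ^ (n + 1) * w * (g ^ (n + 1))⁻¹ = g * (g ^ n * w * (g ^ n)⁻¹) * g⁻¹ := by rw [pow_succ']; group
      have h2 : g * w ^ e ^ n * g⁻¹ = (g * w * g⁻¹) ^ e ^ n := (conj_pow).symm
      have h3 : Commute (w ^ e) c := hcc _
      rw [h1, h]
      calc g * (w ^ e ^ n * d) * g⁻¹ = (g * w ^ e ^ n * g⁻¹) * (g * d * g⁻¹) := by group
        _ = (w ^ e * c) ^ e ^ n * d := by rw [h2, hgw, hdc g, mul_inv_cancel_right]
        _ = w ^ (e ^ (n + 1)) * (c ^ (e ^ n) * d) := by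
          rw [h3.mul_pow, ← pow_mul, pow_succ', mul_assoc]
  have he : w ^ e = w := by
    obtain ⟨m, hm⟩ := IsPGroup.iff_card.1 hT
    obtain ⟨d, hd, h⟩ := hpow (p ^ m)
    rw [← hm, pow_card_eq_one', one_mul, inv_one, mul_one] at h
    -- `e ^ p ^ m ≡ e`
    have h1 : ((e ^ p ^ m : ℕ) : ZMod p) = (e : ZMod p) := by
      push_cast
      exact ZMod.pow_card_pow _
    have h2 : w ^ (e ^ Nat.card T) = w ^ e := by
      rw [hm]
      rw [ZMod.natCast_eq_natCast_iff] at h1
      exact pow_eq_pow_iff_modEq.2 (by rw [hwo]; exact h1)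
    rw [h2] at h
    -- `w = w ^ e d`
    obtain ⟨k, hk⟩ : ∃ k, w ^ k = w * (w ^ e)⁻¹ := by
      refine ⟨1 + e * (p - 1), ?_⟩
      rw [pow_add, pow_one, pow_mul]
      congr 1
      rw [eq_inv_iff_mul_eq_one, ← pow_succ, Nat.sub_add_cancel hp.out.one_lt.le, ← pow_mul, mul_comm, pow_mul, hw,
        one_pow]
    have h3 : w * (w ^ e)⁻¹ = d := by
      have h4 : w = w ^ e * d := h
      have h5 : w ^ e * d = d * w ^ e := (mem_center_iff.1 hd _)
      rw [h5] at h4
      rw [mul_inv_eq_iff_eq_mul]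
      exact h4
    have h4 := hinf k (by rw [hk, h3]; exact hd)
    rw [hk, mul_inv_eq_one] at h4
    exact h4.symm
  rw [he] at hgw
  have hc1 : c ≠ 1 := by
    rintro rfl
    rw [mul_one, mul_inv_eq_iff_eq_mul] at hgw
    exact hgc hgw
  have hcp : c ^ p = 1 := by
    have h1 := pow_card_eq_one' (G := center T) (x := ⟨c, hc⟩)
    rw [ha] at h1
    exact congrArg Subtype.val h1
  have hco : orderOf c = p := orderOf_eq_prime hcp hc1
  have hcz : ∀ u ∈ center T, ∃ j : ℕ, u = c ^ j := by
    intro u hu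
    have h1 : zpowers c = center T := by
      refine eq_of_le_of_card_ge (zpowers_le.2 hc) ?_
      rw [Nat.card_zpowers, hco, ha]
    rw [← h1] at hu
    obtain ⟨j, hj⟩ := (mem_powers_iff_mem_zpowers).2 hu
    exact ⟨j, hj.symm⟩
  have hgk : ∀ k : ℕ, g ^ k * w * (g ^ k)⁻¹ = w * c ^ k := by
    intro k
    induction k with
    | zero => simp
    | succ k ih =>
      have h1 : g ^ (k + 1) * w * (g ^ (k + 1))⁻¹ = g * (g ^ k * w * (g ^ k)⁻¹) * g⁻¹ := by rw [pow_succ']; group
      have h2 : g * c ^ k = c ^ k * g := mem_center_iff.1 (pow_mem hc k) g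
      rw [h1, ih]
      calc g * (w * c ^ k) * g⁻¹ = (g * w * g⁻¹) * (g * c ^ k * g⁻¹) := by group
        _ = w * c * c ^ k := by rw [hgw, h2, mul_inv_cancel_right]
        _ = w * c ^ (k + 1) := by rw [pow_succ', mul_assoc]
  intro x hx
  obtain ⟨i, u, hu, rfl⟩ := hform x hx
  by_cases hi : p ∣ i
  · left
    obtain ⟨m, rfl⟩ := hi
    rw [pow_mul, hw, one_pow, one_mul]
    exact hu
  · right
    obtain ⟨j, rfl⟩ := hcz u hu
    obtain ⟨m, hm⟩ := Nat.exists_mul_mod_eq_one_of_coprime (((Nat.Prime.coprime_iff_not_dvd hp.out).2 hi).symm)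
      hp.out.one_lt
    -- `k = m j`
    refine ⟨(g ^ (m * j))⁻¹, i, ?_⟩
    have h1 : (g ^ (m * j)) * w ^ i * (g ^ (m * j))⁻¹ = w ^ i * c ^ j := by
      rw [← conj_pow, hgk]
      have h2 : Commute w (c ^ (m * j)) := mem_center_iff.1 (pow_mem hc _) w
      rw [h2.mul_pow, ← pow_mul]
      congr 1
      refine pow_eq_pow_iff_modEq.2 ?_
      rw [hco]
      have h3 : i * m ≡ 1 [MOD p] := by
        show i * m % p = 1 % p
        rw [hm.2, Nat.mod_eq_of_lt hp.out.one_lt]
      calc m * j * i = (i * m) * j := by ring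
        _ ≡ 1 * j [MOD p] := h3.mul_right j
        _ = j := one_mul j
    rw [← h1, inv_inv]
    group

end Cfsg.Agent.H555.MG
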