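import Cfsg.Agent.H555.MG.Cent

/-!
# Centralisers `C(w)/⟨w⟩` with Sylow subgroups `p^{1+2}` (helper555)

* `card_center_le` : `|Z(P)| ≤ p^n` for a nonabelian group `P` of order `p^(n+2)`;
* `central_conj` : an element of order `p` whose centraliser contains a Sylow subgroup is conjugate into the centre of a given Sylow
  subgroup;
* **`core`** : `φ : C(w) → H` onto with kernel `⟨w⟩`, `S₀` a nonabelian Sylow subgroup of order `p³` of `H`, `p⁵ ∣ |G|`, `x ∈ C(w)`
  with `φ x` in the centre of `S₀`: there is a Sylow subgroup `T` of `G` with centre of order `p` containing `x`, and `x` is central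
  in `T` or conjugate to a power of `w`.
-/

set_option autoImplicit false

namespace Cfsg.Agent.H555.MG

open Subgroup

theorem card_center_le {P : Type*} [Group P] [Finite P] {p n : ℕ} [hp : Fact p.Prime] (hP : Nat.card P = p ^ (n + 2))
    {a b : P} (hab : a * b ≠ b * a) : Nat.card (center P) ≤ p ^ n := by
  have hpg : IsPGroup p P := IsPGroup.of_card hP
  obtain ⟨k, hk⟩ := IsPGroup.iff_card.1 (hpg.to_subgroup (center P))
  rw [hk]
  refine Nat.pow_le_pow_right hp.out.pos ?_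
  by_contra hlt
  have h1 : Nat.card (center P) * (center P).index = p ^ (n + 2) := by rw [card_mul_index, hP]
  obtain ⟨m, hm⟩ : ∃ m, (center P).index = p ^ m := by
    have h2 : (center P).index ∣ p ^ (n + 2) := by rw [← h1]; exact dvd_mul_left _ _
    obtain ⟨m, -, hm⟩ := (Nat.dvd_prime_pow hp.out).1 h2
    exact ⟨m, hm⟩
  rw [hk, hm, ← pow_add] at h1
  have h3 := Nat.pow_right_injective hp.out.two_le h1
  have h4 : m ≤ 1 := by omega
  have hcyc : IsCyclic (P ⧸ center P) := by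
    rcases Nat.le_one_iff_eq_zero_or_eq_one.1 h4 with rfl | rfl
    · have h5 : Nat.card (P ⧸ center P) = 1 := by rw [← index_eq_card, hm, pow_zero]
      have h6 : Subsingleton (P ⧸ center P) := (Nat.card_eq_one_iff_unique.1 h5).1
      infer_instance
    · have h5 : Nat.card (P ⧸ center P) = p := by rw [← index_eq_card, hm, pow_one]
      exact isCyclic_of_prime_card h5
  apply hab
  exact commutative_of_cyclic_center_quotient (QuotientGroup.mk' (center P)) (by rw [QuotientGroup.ker_mk']) a b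

theorem central_conj {G : Type*} [Group G] [Finite G] {p n : ℕ} [hp : Fact p.Prime] (hn : ¬ p ^ (n + 1) ∣ Nat.card G)
    {v : G} (hv : v ^ p = 1) (hd : p ^ n ∣ Nat.card (centralizer ({v} : Set G))) (T : Sylow p G) :
    ∃ k : G, k * v * k⁻¹ ∈ T ∧ ∀ t ∈ T, t * (k * v * k⁻¹) = k * v * k⁻¹ * t := by
  set D := centralizer ({v} : Set G) with hD
  have hvD : v ∈ D := mem_centralizer_singleton_iff.2 rfl
  have h1 : IsPGroup p (zpowers (⟨v, hvD⟩ : D)) := by
    intro g
    refine ⟨1, ?_⟩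
    obtain ⟨g, i, hi⟩ := g
    apply Subtype.ext
    show g ^ p ^ 1 = 1
    rw [pow_one, ← (show (⟨v, hvD⟩ : D) ^ i = g from hi), ← zpow_natCast, ← zpow_mul, mul_comm, zpow_mul, zpow_natCast]
    have h2 : (⟨v, hvD⟩ : D) ^ p = 1 := Subtype.ext hv
    rw [h2, one_zpow]
  obtain ⟨P, hP⟩ := h1.exists_le_sylow
  have hvP : (⟨v, hvD⟩ : D) ∈ P := hP (mem_zpowers _)
  have hPc : p ^ n ∣ Nat.card P := by
    rw [P.card_eq_multiplicity]
    exact pow_dvd_pow p ((hp.out.pow_dvd_iff_le_factorization Nat.card_pos.ne').1 hd)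
  set Q : Subgroup G := (P : Subgroup D).map D.subtype with hQ
  have hQc : Nat.card Q = Nat.card P := card_map_of_injective D.subtype_injective
  have hQp : IsPGroup p Q := P.2.map _
  obtain ⟨R, hR⟩ := hQp.exists_le_sylow
  have hQR : Q = (R : Subgroup G) := by
    refine eq_of_le_of_card_ge hR ?_
    obtain ⟨m, hm⟩ := IsPGroup.iff_card.1 R.2
    have h2 : m ≤ n := by
      by_contra hlt
      apply hn
      have h3 : p ^ m ∣ Nat.card G := by rw [← hm]; exact card_subgroup_dvd_card _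
      exact (pow_dvd_pow p (by omega)).trans h3
    rw [hQc]
    calc Nat.card (R : Subgroup G) = p ^ m := hm
      _ ≤ p ^ n := Nat.pow_le_pow_right hp.out.pos h2
      _ ≤ Nat.card P := Nat.le_of_dvd Nat.card_pos hPc
  obtain ⟨k, hk⟩ := MulAction.exists_smul_eq G R T
  have hT : (T : Subgroup G) = (R : Subgroup G).map (MulAut.conj k).toMonoidHom := by
    rw [← hk]
    rfl
  have hvR : v ∈ (R : Subgroup G) := by
    rw [← hQR]
    exact ⟨⟨v, hvD⟩, hvP, rfl⟩
  have hRD : (R : Subgroup G) ≤ D := by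
    rw [← hQR]
    exact map_subtype_le _
  refine ⟨k, ?_, fun t ht => ?_⟩
  · show k * v * k⁻¹ ∈ (T : Subgroup G)
    rw [hT]
    exact ⟨v, hvR, rfl⟩
  · have ht' : t ∈ (T : Subgroup G) := ht
    rw [hT] at ht'
    obtain ⟨s, hs, rfl⟩ := ht'
    have h2 : s * v = v * s := mem_centralizer_singleton_iff.1 (hRD hs)
    show k * s * k⁻¹ * (k * v * k⁻¹) = k * v * k⁻¹ * (k * s * k⁻¹)
    calc k * s * k⁻¹ * (k * v * k⁻¹) = k * (s * v) * k⁻¹ := by group
      _ = k * (v * s) * k⁻¹ := by rw [h2]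
      _ = _ := by group

theorem core {G H : Type*} [Group G] [Finite G] [Group H] [Finite H] {p : ℕ} [hp : Fact p.Prime] {w : G}
    (hw : orderOf w = p) {D : Subgroup G} (hD : ∀ g, g ∈ D ↔ g * w = w * g) (φ : D →* H) (hφ : Function.Surjective φ)
    (hk : ∀ d, φ d = 1 ↔ (d : G) ∈ zpowers w) (h4 : ¬ p ^ 4 ∣ Nat.card H) (h5 : p ^ 5 ∣ Nat.card G)
    (S₀ : Sylow p H) (h3 : Nat.card S₀ = p ^ 3) {a b : H} (ha : a ∈ S₀) (hb : b ∈ S₀) (hab : a * b ≠ b * a) {x : G}
    (hxD : x ∈ D) (hy : φ ⟨x, hxD⟩ ∈ S₀) (hyc : ∀ s ∈ S₀, s * φ ⟨x, hxD⟩ = φ ⟨x, hxD⟩ * s) :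
    ∃ T : Sylow p G, (∀ v ∈ T, v ≠ 1 → (∀ t ∈ T, t * v = v * t) → ∀ u ∈ T, (∀ t ∈ T, t * u = u * t) →
        u ∈ zpowers v) ∧ x ∈ T ∧
      ((∀ t ∈ T, t * x = x * t) ∨ ∃ (g : G) (i : ℕ), g * x * g⁻¹ = w ^ i) := by
  classical
  have hwD : w ∈ D := (hD w).2 rfl
  -- the kernel
  have hker : Nat.card φ.ker = p := by
    have h1 : φ.ker.map D.subtype = zpowers w := by
      ext g
      constructor
      · rintro ⟨d, hd, rfl⟩
        exact (hk d).1 hd
      · intro hg
        have hgD : g ∈ D := by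
          obtain ⟨i, rfl⟩ := hg
          exact zpow_mem hwD i
        exact ⟨⟨g, hgD⟩, (hk _).2 hg, rfl⟩
    rw [← card_map_of_injective (K := φ.ker) D.subtype_injective, h1, Nat.card_zpowers, hw]
  have hcD : Nat.card D = p * Nat.card H := by
    rw [← card_mul_index φ.ker, hker, index_ker]
    congr 1
    exact Nat.card_congr (Equiv.subtypeUnivEquiv fun h => hφ h)
  -- the preimage
  set SD : Subgroup D := (S₀ : Subgroup H).comap φ with hSD
  have hcSD : Nat.card SD = p ^ 4 := by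
    have h1 := card_mul_index SD
    rw [hSD, index_comap_of_surjective _ hφ, hcD, ← card_mul_index (S₀ : Subgroup H), ← mul_assoc] at h1
    have h2 : 0 < (S₀ : Subgroup H).index := Nat.pos_of_ne_zero index_ne_zero_of_finite
    have h6 := Nat.eq_of_mul_eq_mul_right h2 h1
    rw [hSD, h6, h3]
    ring
  set S : Subgroup G := SD.map D.subtype with hS
  have hcS : Nat.card S = p ^ 4 := by rw [hS, card_map_of_injective D.subtype_injective, hcSD]
  have hSp : IsPGroup p S := IsPGroup.of_card hcS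
  have hSle : S ≤ D := map_subtype_le _
  have hwS : w ∈ S := ⟨⟨w, hwD⟩, by
    show φ ⟨w, hwD⟩ ∈ S₀
    rw [(hk _).2 (mem_zpowers w)]
    exact one_mem _, rfl⟩
  obtain ⟨T, hT⟩ := hSp.exists_le_sylow
  have h5D : ¬ p ^ 5 ∣ Nat.card D := by
    rw [hcD, pow_succ' p 4]
    intro h
    exact h4 (Nat.dvd_of_mul_dvd_mul_left hp.out.pos h)
  have hTc : p ^ 5 ∣ Nat.card T := by
    rw [T.card_eq_multiplicity]
    exact pow_dvd_pow p ((hp.out.pow_dvd_iff_le_factorization Nat.card_pos.ne').1 h5)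
  -- in `T`
  let w' : T := ⟨w, hT hwS⟩
  have hw'p : w' ^ p = 1 := Subtype.ext (by show w ^ p = 1; rw [← hw, pow_orderOf_eq_one])
  have hw'c : w' ∉ center T := by
    intro h
    apply h5D
    refine hTc.trans (card_dvd_of_le fun t ht => ?_)
    have h1 := mem_center_iff.1 h ⟨t, ht⟩
    exact (hD t).2 (congrArg Subtype.val h1)
  set C : Subgroup T := centralizer ({w'} : Set T) with hC
  have hCS : C.map (T : Subgroup G).subtype = S := by
    symm
    refine eq_of_le_of_card_ge ?_ ?_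
    · intro s hs
      have h1 : s * w = w * s := (hD s).1 (hSle hs)
      exact ⟨⟨s, hT hs⟩, mem_centralizer_singleton_iff.2 (Subtype.ext h1), rfl⟩
    · rw [hcS]
      have h1 : IsPGroup p (C.map (T : Subgroup G).subtype) := (T.2.to_subgroup C).map _
      obtain ⟨j, hj⟩ := IsPGroup.iff_card.1 h1
      rw [hj]
      refine Nat.pow_le_pow_right hp.out.pos ?_
      by_contra hlt
      apply h5D
      refine (pow_dvd_pow p (show 5 ≤ j by omega)).trans ?_
      rw [← hj]
      refine card_dvd_of_le ?_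
      rintro _ ⟨c, hc, rfl⟩
      exact (hD _).2 (congrArg Subtype.val (mem_centralizer_singleton_iff.1 hc))
  have hcC : Nat.card C = p ^ 4 := by
    rw [← hcS, ← hCS, card_map_of_injective (T : Subgroup G).subtype_injective]
  -- lifts of elements of `S₀`
  have hlift : ∀ s ∈ S₀, ∃ c : C, ∃ hcw : ((c : T) : G) ∈ D, φ ⟨((c : T) : G), hcw⟩ = s := by
    intro s hs
    obtain ⟨d, rfl⟩ := hφ s
    have h1 : (d : G) ∈ S := ⟨d, hs, rfl⟩
    rw [← hCS] at h1
    obtain ⟨c, hc, hcd⟩ := h1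
    have hcd' : ((c : T) : G) = d := hcd
    exact ⟨⟨c, hc⟩, by rw [hcd']; exact d.2, congrArg φ (Subtype.ext hcd')⟩
  have hCD : ∀ c : T, c ∈ C → (c : G) ∈ D := fun c hc =>
    (hD _).2 (congrArg Subtype.val (mem_centralizer_singleton_iff.1 hc))
  have hCS0 : ∀ (c : T) (hc : c ∈ C), φ ⟨c, hCD c hc⟩ ∈ S₀ := by
    intro c hc
    have h1 : (c : G) ∈ S := by
      rw [← hCS]
      exact ⟨c, hc, rfl⟩
    obtain ⟨d, hd, hdc⟩ := h1
    have hdc' : (d : G) = c := hdc
    have h2 : (⟨c, hCD c hc⟩ : D) = d := Subtype.ext hdc'.symm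
    rw [h2]
    exact hd
  obtain ⟨ca, hca, hca'⟩ := hlift a ha
  obtain ⟨cb, hcb, hcb'⟩ := hlift b hb
  have hcab : ca * cb ≠ cb * ca := by
    intro h
    apply hab
    have h1 : (⟨((ca : T) : G), hca⟩ : D) * ⟨((cb : T) : G), hcb⟩ = ⟨((cb : T) : G), hcb⟩ * ⟨((ca : T) : G), hca⟩ :=
      Subtype.ext (congrArg (fun q : C => ((q : T) : G)) h)
    rw [← hca', ← hcb', ← map_mul, ← map_mul, h1]
  have hZC1 : Nat.card (center C) ≤ p ^ 2 := card_center_le (n := 2) hcC hcab
  have hZC2 : Nat.card (ZC w') ≤ p ^ 2 := by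
    refine le_trans ?_ hZC1
    refine Nat.card_le_card_of_injective (fun z : ZC w' => (⟨⟨z, mem_centralizer_singleton_iff.2 (z.2 w' rfl)⟩, ?_⟩ :
      center C)) ?_
    · rw [mem_center_iff]
      intro s
      exact Subtype.ext (z.2 s (mem_centralizer_singleton_iff.1 s.2)).symm
    · intro z z' h
      exact Subtype.ext (congrArg (fun q : center C => ((q : C) : T)) h)
  obtain ⟨hf1, hf2, hf3⟩ := center_facts T.2 hw'p hw'c hZC2
  -- `x ∈ ZC w'`
  let f : ZC w' →* H :=
    { toFun := fun z => φ ⟨((z : T) : G), hCD z (mem_centralizer_singleton_iff.2 (z.2 w' rfl))⟩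
      map_one' := (hk _).2 (one_mem _)
      map_mul' := fun z z' => by
        rw [← map_mul]
        rfl }
  have hfker : Nat.card f.ker ≤ p := by
    have h1 : Nat.card (zpowers w) = p := by rw [Nat.card_zpowers, hw]
    refine le_trans ?_ h1.le
    refine Nat.card_le_card_of_injective (fun z : f.ker => (⟨(((z : ZC w') : T) : G), (hk _).1 z.2⟩ : zpowers w)) ?_
    intro z z' h
    exact Subtype.ext (Subtype.ext (Subtype.ext (congrArg (fun q : zpowers w => (q : G)) h)))
  have hfr : p ≤ Nat.card f.range := by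
    have h1 := card_mul_index f.ker
    rw [index_ker] at h1
    replace h1 : Nat.card f.ker * Nat.card f.range = p * p := h1.trans (hf2.trans (pow_two p))
    by_contra hlt
    push Not at hlt
    have h2 : Nat.card f.ker * Nat.card f.range < p * p :=
      lt_of_le_of_lt (Nat.mul_le_mul_right _ hfker) (Nat.mul_lt_mul_of_pos_left hlt hp.out.pos)
    omega
  have hZ0 : Nat.card (center S₀) ≤ p ^ 1 := card_center_le (n := 1) h3 (a := ⟨a, ha⟩) (b := ⟨b, hb⟩)
    fun h => hab (congrArg Subtype.val h)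
  have hrange : f.range = (center S₀).map (S₀ : Subgroup H).subtype := by
    refine eq_of_le_of_card_ge ?_ ?_
    · rintro _ ⟨z, rfl⟩
      refine ⟨⟨f z, hCS0 z (mem_centralizer_singleton_iff.2 (z.2 w' rfl))⟩, ?_, rfl⟩
      show _ ∈ center S₀
      rw [mem_center_iff]
      rintro ⟨s, hs⟩
      apply Subtype.ext
      obtain ⟨c, hc, rfl⟩ := hlift s hs
      show φ ⟨((c : T) : G), hc⟩ * f z = f z * φ ⟨((c : T) : G), hc⟩
      have h1 := z.2 c (mem_centralizer_singleton_iff.1 c.2)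
      show φ _ * φ _ = φ _ * φ _
      rw [← map_mul, ← map_mul]
      exact congrArg φ (Subtype.ext (congrArg (fun q : T => (q : G)) h1).symm)
    · rw [card_map_of_injective (S₀ : Subgroup H).subtype_injective]
      rw [pow_one] at hZ0
      exact hZ0.trans hfr
  have hyr : φ ⟨x, hxD⟩ ∈ f.range := by
    rw [hrange]
    refine ⟨⟨_, hy⟩, ?_, rfl⟩
    show _ ∈ center S₀
    rw [mem_center_iff]
    rintro ⟨s, hs⟩
    exact Subtype.ext (hyc s hs)
  obtain ⟨z, hz⟩ := hyr
  have hz' : φ ⟨((z : T) : G), hCD z (mem_centralizer_singleton_iff.2 (z.2 w' rfl))⟩ =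
      φ ⟨x, hxD⟩ := hz
  have h1 : ((z : T) : G)⁻¹ * x ∈ zpowers w := by
    have h2 := (hk ((⟨((z : T) : G), hCD z (mem_centralizer_singleton_iff.2 (z.2 w' rfl))⟩ : D)⁻¹ *
      ⟨x, hxD⟩)).1 (by rw [map_mul, map_inv, hz', inv_mul_cancel])
    exact h2
  obtain ⟨i, hi⟩ := h1
  have hi' : w ^ i = ((z : T) : G)⁻¹ * x := hi
  have hxz : x = (((z : T) * w' ^ i : T) : G) := by
    have h2 : (((z : T) * w' ^ i : T) : G) = ((z : T) : G) * w ^ i := by simp [w']
    rw [h2, hi', mul_inv_cancel_left]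
  have hxT : x ∈ T := by
    rw [hxz]
    exact SetLike.coe_mem _
  have hxZ : (⟨x, hxT⟩ : T) ∈ ZC w' := by
    have h2 : (⟨x, hxT⟩ : T) = (z : T) * w' ^ i := Subtype.ext hxz
    rw [h2]
    exact mul_mem z.2 (zpow_mem (self_mem_ZC w') i)
  have hf1' : ∀ v ∈ T, v ≠ 1 → (∀ t ∈ T, t * v = v * t) → ∀ u ∈ T, (∀ t ∈ T, t * u = u * t) → u ∈ zpowers v := by
    intro v hv hv1 hvc u hu huc
    have h2 : (⟨v, hv⟩ : (T : Subgroup G)) ∈ center (T : Subgroup G) := by
      rw [mem_center_iff]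
      rintro ⟨t, ht⟩
      exact Subtype.ext (hvc t ht)
    have h4 : (⟨u, hu⟩ : (T : Subgroup G)) ∈ center (T : Subgroup G) := by
      rw [mem_center_iff]
      rintro ⟨t, ht⟩
      exact Subtype.ext (huc t ht)
    have h5 : Nat.card (zpowers (⟨v, hv⟩ : (T : Subgroup G))) = p := by
      have h6 : Nat.card (zpowers (⟨v, hv⟩ : (T : Subgroup G))) ∣ p :=
        (card_dvd_of_le (zpowers_le.2 h2)).trans (dvd_of_eq hf1)
      rcases (Nat.dvd_prime hp.out).1 h6 with h7 | h7
      · exfalso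
        rw [Nat.card_zpowers, orderOf_eq_one_iff] at h7
        exact hv1 (congrArg Subtype.val h7)
      · exact h7
    have h3 : zpowers (⟨v, hv⟩ : (T : Subgroup G)) = center (T : Subgroup G) :=
      eq_of_le_of_card_ge (zpowers_le.2 h2) ((le_of_eq hf1).trans h5.ge)
    rw [← h3] at h4
    obtain ⟨j, hj⟩ := h4
    exact ⟨j, congrArg Subtype.val hj⟩
  refine ⟨T, hf1', hxT, ?_⟩
  rcases hf3 _ hxZ with h2 | ⟨g, j, h2⟩
  · left
    intro t ht
    exact congrArg Subtype.val (mem_center_iff.1 h2 ⟨t, ht⟩)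
  · right
    refine ⟨g, j, ?_⟩
    have h3 := congrArg (fun q : T => (q : G)) h2
    simpa [w'] using h3

end Cfsg.Agent.H555.MG
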